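import Mathlib
import Cfsg.Agent.Lib.Helper91.SO2Wrap
import Cfsg.Agent.Lib.Helper91.SSFive2
import Cfsg.Agent.Lib.Helper91.SSTop
import Cfsg.Agent.Lib.Helper91.SSK1

set_option autoImplicit false

/-!
# No simple group of order `4800` (package of S0983)

`p = 3`: the Sylow `3`-subgroup `P` has order `3` and `[N(P) : C(P)] = 2`, so the principal
block consists of the trivial character and two characters of degrees `4` and `5`.
`C(P) ≠ P`, and an element of prime order `2` or `5` of `C(P)` contradicts the value rules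
for the character of degree `4`.
-/

namespace Cfsg.Agent.Lib.Helper25.Ord4800

universe u

open Cfsg Cfsg.Agent.Lib.Helper17 Cfsg.Agent.Lib.Helper93.SO Cfsg.Agent.Lib.Helper91.SS

/-- consecutive divisors `x, x + 1` of `4800` with `x ≡ 1 mod 3`, `x ≠ 1` -/
theorem arith_4800 (x y : ℕ) (hx : x ∣ 4800) (hy : y ∣ 4800) (hx1 : x ≠ 1) (hmod : x % 3 = 1)
    (hxy : y = x + 1) : x = 4 := by
  have hx' : x ∈ Nat.divisors 4800 := Nat.mem_divisors.mpr ⟨hx, by norm_num⟩
  have hy' : y ∈ Nat.divisors 4800 := Nat.mem_divisors.mpr ⟨hy, by norm_num⟩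
  have key : ∀ x ∈ Nat.divisors 4800, ∀ y ∈ Nat.divisors 4800, x ≠ 1 → x % 3 = 1 →
      y = x + 1 → x = 4 := by decide +kernel
  exact key x hx' y hy' hx1 hmod hxy

/-- a divisor of `800` other than `1` is divisible by `2` or by `5` -/
theorem arith_800 (K : ℕ) (hK : K ∣ 800) (hK1 : K ≠ 1) : 2 ∣ K ∨ 5 ∣ K := by
  have hK' : K ∈ Nat.divisors 800 := Nat.mem_divisors.mpr ⟨hK, by norm_num⟩
  have key : ∀ K ∈ Nat.divisors 800, K ≠ 1 → 2 ∣ K ∨ 5 ∣ K := by decide +kernel
  exact key K hK' hK1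

/-- The group-theoretic core: a simple group of order `4800` has a Sylow `3`-subgroup `P` of
order `3`, an irreducible character `χ` of degree `4` with value `1` on the elements with
`3`-part in `P \ {1}`, and an element of order `2` or `5` in `C(P)`. -/
theorem data_4800 {G : Type u} [Group G] [Finite G] [IsSimpleGroup G]
    (hcard : Nat.card G = 4800) :
    ¬ (Nat.card G).Prime ∧ ∃ (P : Sylow 3 G) (χ : IrrCharacter G) (c : G),
      Nat.card (P : Subgroup G) = 3 ∧ (χ : G → ℂ) 1 ≠ 1 ∧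
      (∀ z y : G, IsPPart 3 z y → y ∈ (P : Subgroup G) → y ≠ 1 →
        (χ : G → ℂ) z = ((1 : ℤ) : ℂ)) ∧
      Cfsg.charDegree (χ : G → ℂ) = 4 ∧
      c ∈ Subgroup.centralizer ((P : Subgroup G) : Set G) ∧ (orderOf c = 2 ∨ orderOf c = 5) := by
  haveI : Fact (Nat.Prime 3) := ⟨by norm_num⟩
  obtain ⟨hGn, P, d, r, hP, hd, hdc, hd1, hfact, hdN, hr, hr1, hrdvd, hrC, hPC⟩ :=
    sylow_prime_data (G := G) 3 1600 2 (by norm_num) (by norm_num) (by rw [hcard])
      (by norm_num) (by rw [hcard]; norm_num)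
  refine ⟨hGn, ?_⟩
  have hr2 : r = 2 := by
    have h2 : r ∣ 2 := by simpa using hrdvd
    have hle : r ≤ 2 := Nat.le_of_dvd (by norm_num) h2
    interval_cases r
    · simp at h2
    · exact absurd rfl hr1
    · rfl
  subst hr2
  -- an element of order 2 or 5 in C(P)
  obtain ⟨c, hc, hcq⟩ : ∃ c : G, c ∈ Subgroup.centralizer ((P : Subgroup G) : Set G) ∧
      (orderOf c = 2 ∨ orderOf c = 5) := by
    have h3 : 3 ∣ Nat.card (Subgroup.centralizer ((P : Subgroup G) : Set G)) := by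
      have h := Subgroup.card_dvd_of_le hPC
      rwa [hP] at h
    obtain ⟨K, hK⟩ := h3
    have hdK : d * K = 800 := by
      rw [← hrC, hK, hcard] at hdN
      have h6 : 6 * (d * K) = 4800 := by rw [← hdN]; ring
      omega
    have hdmod : d % 3 = 1 := by
      simp only [sylowCands, List.mem_filter, List.mem_range, decide_eq_true_eq] at hdc
      exact hdc.2.2
    have hK1 : K ≠ 1 := by
      rintro rfl
      omega
    have hKdvd : K ∣ 800 := ⟨d, by rw [← hdK, mul_comm]⟩
    have hC : 2 ∣ Nat.card (Subgroup.centralizer ((P : Subgroup G) : Set G)) ∨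
        5 ∣ Nat.card (Subgroup.centralizer ((P : Subgroup G) : Set G)) := by
      rw [hK]
      rcases arith_800 K hKdvd hK1 with h | h
      · exact Or.inl (h.trans (dvd_mul_left K 3))
      · exact Or.inr (h.trans (dvd_mul_left K 3))
    rcases hC with h | h
    · obtain ⟨c', hc'⟩ := exists_prime_orderOf_dvd_card'
        (G := Subgroup.centralizer ((P : Subgroup G) : Set G)) 2 h
      exact ⟨(c' : G), c'.2, Or.inl (by rw [Subgroup.orderOf_coe]; exact hc')⟩
    · haveI : Fact (Nat.Prime 5) := ⟨by norm_num⟩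
      obtain ⟨c', hc'⟩ := exists_prime_orderOf_dvd_card'
        (G := Subgroup.centralizer ((P : Subgroup G) : Set G)) 5 h
      exact ⟨(c' : G), c'.2, Or.inr (by rw [Subgroup.orderOf_coe]; exact hc')⟩
  -- the principal block
  obtain ⟨k, χ, a, hinj, hχ, hnorm, hrel, hreal⟩ := brauer_top hGn 3 P hP (by rw [hr])
  have hge : ∀ i, 1 ≤ a i ^ 2 := by
    intro i
    have h1 : 0 < a i ^ 2 := by
      have := (hχ i).1
      positivity
    omega
  have hk2 : k ≤ 2 := by
    have h1 : ∑ _i : Fin k, (1 : ℤ) ≤ ∑ i, a i ^ 2 := Finset.sum_le_sum (fun i _ => hge i)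
    rw [Finset.sum_const, Finset.card_univ, Fintype.card_fin, nsmul_eq_mul, mul_one] at h1
    push_cast at hnorm
    omega
  have hrel1 := hrel 1 (by rw [orderOf_one]; norm_num)
  push_cast at hnorm
  -- degrees
  have hdeg : ∀ i, ∃ f : ℕ, f = Cfsg.charDegree ((χ i : IrrCharacter G) : G → ℂ) ∧
      (χ i : G → ℂ) 1 = (f : ℂ) ∧ f ∣ 4800 ∧ f ≠ 1 ∧ f ≠ 0 ∧ (f : ℤ) ≡ a i [ZMOD 3] := by
    intro i
    obtain ⟨ha0, hx1, hxa⟩ := hχ i
    obtain ⟨hxd, hxpos, hxdvd⟩ := Cfsg.Agent.Lib.Helper79.irr_charDegree (χ i).2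
    have hmod : (Cfsg.charDegree ((χ i : IrrCharacter G) : G → ℂ) : ℤ) ≡ a i [ZMOD 3] := by
      have := Cfsg.Agent.Lib.Helper90.BrauerDeg.degree_modEq (χ i).2 3 (P : Subgroup G) hP (a i)
        (fun y hy hy1 => hxa y y (isPPart_self (by norm_num) _ hP y hy hy1) hy hy1)
      exact_mod_cast this
    refine ⟨_, rfl, hxd, ?_, ?_, hxpos.ne', hmod⟩
    · rw [← hcard]; exact hxdvd
    · intro h
      apply hx1
      rw [hxd, h]
      norm_num
  interval_cases k
  · simp at hnorm
  · exfalso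
    simp only [Fin.sum_univ_succ, Fin.sum_univ_zero, add_zero] at hnorm
    have h2 : a 0 ^ 2 = 2 := by omega
    have h1 : -2 ≤ a 0 ∧ a 0 ≤ 2 := by constructor <;> nlinarith
    obtain ⟨h1, h1'⟩ := h1
    interval_cases (a 0) <;> simp_all
  · simp only [Fin.sum_univ_two] at hnorm hrel1
    obtain ⟨f0, hf0, hχ0, hdvd0, hne0, hpos0, hmod0⟩ := hdeg 0
    obtain ⟨f1, hf1, hχ1, hdvd1, hne1, hpos1, hmod1⟩ := hdeg 1
    rw [hχ0, hχ1] at hrel1
    have hrelZ : 1 + (a 0 * (f0 : ℤ) + a 1 * (f1 : ℤ)) = 0 := by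
      have h : ((1 + (a 0 * (f0 : ℤ) + a 1 * (f1 : ℤ)) : ℤ) : ℂ) = 0 := by
        push_cast
        exact hrel1
      exact_mod_cast h
    have ha0 : a 0 ^ 2 = 1 := by
      have := hge 0
      have := hge 1
      omega
    have ha1 : a 1 ^ 2 = 1 := by
      have := hge 0
      have := hge 1
      omega
    have hs0 : a 0 = 1 ∨ a 0 = -1 := by
      have h1 : (a 0 - 1) * (a 0 + 1) = 0 := by nlinarith
      rcases mul_eq_zero.mp h1 with h | h
      · left; omega
      · right; omega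
    have hs1 : a 1 = 1 ∨ a 1 = -1 := by
      have h1 : (a 1 - 1) * (a 1 + 1) = 0 := by nlinarith
      rcases mul_eq_zero.mp h1 with h | h
      · left; omega
      · right; omega
    rcases hs0 with h0 | h0 <;> rcases hs1 with h1 | h1
    · exfalso
      rw [h0, h1] at hrelZ
      omega
    · -- a 0 = 1, a 1 = -1 : f1 = f0 + 1
      rw [h0, h1] at hrelZ
      rw [h0] at hmod0
      have hf : f1 = f0 + 1 := by omega
      have hm : f0 % 3 = 1 := by
        have := hmod0
        unfold Int.ModEq at this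
        omega
      have h4 := arith_4800 f0 f1 hdvd0 hdvd1 hne0 hm hf
      refine ⟨P, χ 0, c, hP, (hχ 0).2.1, ?_, ?_, hc, hcq⟩
      · have := (hχ 0).2.2
        rw [h0] at this
        exact this
      · rw [← hf0, h4]
    · -- a 0 = -1, a 1 = 1 : f0 = f1 + 1
      rw [h0, h1] at hrelZ
      rw [h1] at hmod1
      have hf : f0 = f1 + 1 := by omega
      have hm : f1 % 3 = 1 := by
        have := hmod1
        unfold Int.ModEq at this
        omega
      have h4 := arith_4800 f1 f0 hdvd1 hdvd0 hne1 hm hf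
      refine ⟨P, χ 1, c, hP, (hχ 1).2.1, ?_, ?_, hc, hcq⟩
      · have := (hχ 1).2.2
        rw [h1] at this
        exact this
      · rw [← hf1, h4]
    · exfalso
      rw [h0, h1] at hrelZ
      omega

/-- No simple group of order `4800`, given the rule for elements of order `5` in `C(P)`. -/
theorem noSimple_4800_of
    (hk1 : ∀ (G : Type u) [Group G] [Finite G] [IsSimpleGroup G], ¬ (Nat.card G).Prime →
      ∀ (P : Subgroup G), Nat.card P = 3 → ∀ (χ : IrrCharacter G), (χ : G → ℂ) 1 ≠ 1 →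
      (∀ z y : G, IsPPart 3 z y → y ∈ P → y ≠ 1 → (χ : G → ℂ) z = ((1 : ℤ) : ℂ)) →
      Cfsg.charDegree (χ : G → ℂ) = 4 →
      ∀ c : G, c ∈ Subgroup.centralizer (P : Set G) → orderOf c = 5 → False) :
    NoSimple.{u} 4800 := by
  intro G _ _ _ _ hcard
  haveI : Fact (Nat.Prime 3) := ⟨by norm_num⟩
  obtain ⟨hGn, P, χ, c, hP, hχ1, hval, hdeg, hc, hcq⟩ := data_4800 hcard
  rcases hcq with h2 | h5
  · obtain ⟨n, k, h1, hk1', hk2, -⟩ :=
      involution_value hGn 3 (by norm_num) (P : Subgroup G) hP χ hχ1 1 hval c hc h2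
    rw [hdeg] at h1 hk2
    push_cast at h1
    omega
  · exact hk1 G hGn (P : Subgroup G) hP χ hχ1 hval hdeg c hc h5

/-- **No simple group of order `4800`.** -/
theorem noSimple_4800 : NoSimple.{u} 4800 := by
  refine noSimple_4800_of ?_
  intro G _ _ _ hGn P hP χ hχ1 hval hdeg c hc h5
  haveI : Fact (Nat.Prime 3) := ⟨by norm_num⟩
  obtain ⟨n, T, hT, h1, h2⟩ :=
    k1_const hGn 3 P hP χ hχ1 1 hval c hc 5 (by norm_num) (by norm_num) h5
  rw [hdeg] at h2
  push_cast at h1 h2
  omega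

end Cfsg.Agent.Lib.Helper25.Ord4800
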