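import Mathlib

/-!
# PN-core (package for S4130, dispatched by helper32)

If `p` is the smallest prime divisor of `|G|`, a Sylow `p`-subgroup `P` is abelian and no
conjugacy class size is divisible by `p ^ 2`, then `N_G(P) = C_G(P)`.
-/

set_option autoImplicit false

namespace Cfsg.Agent.Lib.Helper25.PN

open Subgroup

universe u v

/-- a subset of `G` closed under conjugation through `f`, as a type carrying that action -/
structure CS {Γ : Type u} {G : Type v} [Group Γ] [Group G] (f : Γ →* G) (S : Set G)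
    (hS : ∀ γ : Γ, ∀ x ∈ S, f γ * x * (f γ)⁻¹ ∈ S) where
  val : G
  mem : val ∈ S

namespace CS

variable {Γ : Type u} {G : Type v} [Group Γ] [Group G] {f : Γ →* G} {S : Set G}
    {hS : ∀ γ : Γ, ∀ x ∈ S, f γ * x * (f γ)⁻¹ ∈ S}

theorem ext' {a b : CS f S hS} (h : a.val = b.val) : a = b := by
  cases a; cases b; cases h; rfl

instance : MulAction Γ (CS f S hS) where
  smul γ x := ⟨f γ * x.val * (f γ)⁻¹, hS γ x.val x.mem⟩
  one_smul x := ext' (by show f 1 * x.val * (f 1)⁻¹ = x.val; simp)
  mul_smul a b x := ext' (by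
    show f (a * b) * x.val * (f (a * b))⁻¹ = f a * (f b * x.val * (f b)⁻¹) * (f a)⁻¹
    rw [map_mul]; group)

theorem smul_val (γ : Γ) (x : CS f S hS) : (γ • x).val = f γ * x.val * (f γ)⁻¹ := rfl

instance [Finite G] : Finite (CS f S hS) :=
  Finite.of_injective CS.val (fun _ _ h => ext' h)

theorem mem_fixedBy_iff (γ : Γ) (x : CS f S hS) :
    x ∈ MulAction.fixedBy (CS f S hS) γ ↔ f γ * x.val * (f γ)⁻¹ = x.val := by
  rw [MulAction.mem_fixedBy]
  constructor
  · intro h; rw [← smul_val, h]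
  · intro h; exact ext' h

end CS

/-- Burnside's orbit counting lemma with `Nat.card` -/
theorem burnside {Γ : Type u} {β : Type v} [Group Γ] [Fintype Γ] [MulAction Γ β] [Finite β] :
    ∑ g : Γ, Nat.card (MulAction.fixedBy β g) =
      Nat.card (MulAction.orbitRel.Quotient Γ β) * Nat.card Γ := by
  classical
  haveI := Fintype.ofFinite β
  haveI : Fintype (MulAction.orbitRel.Quotient Γ β) := Fintype.ofFinite _
  have h := MulAction.sum_card_fixedBy_eq_card_orbits_mul_card_group Γ β
  simp only [Nat.card_eq_fintype_card]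
  exact h

/-- the set of `p`-elements -/
def pEl (p : ℕ) (G : Type u) [Group G] : Set G := {y : G | ∃ k : ℕ, y ^ p ^ k = 1}

theorem pEl_conj (p : ℕ) {G : Type u} [Group G] :
    ∀ γ : G, ∀ y ∈ pEl p G, (MonoidHom.id G) γ * y * ((MonoidHom.id G) γ)⁻¹ ∈ pEl p G := by
  rintro γ y ⟨k, hk⟩
  refine ⟨k, ?_⟩
  show (γ * y * γ⁻¹) ^ p ^ k = 1
  rw [conj_pow, hk]; simp

/-- the `p`-elements with the conjugation action of `G` -/
abbrev Om (p : ℕ) (G : Type u) [Group G] := CS (MonoidHom.id G) (pEl p G) (pEl_conj p)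

theorem nP_conj {G : Type u} [Group G] (P : Subgroup G) :
    ∀ γ : ↥(normalizer (P : Set G)), ∀ y ∈ (P : Set G),
      (normalizer (P : Set G)).subtype γ * y * ((normalizer (P : Set G)).subtype γ)⁻¹ ∈
        (P : Set G) := by
  intro γ y hy
  exact (Subgroup.mem_normalizer_iff.1 γ.2 y).1 hy

/-- `P` with the conjugation action of its normalizer -/
abbrev Pi {G : Type u} [Group G] (P : Subgroup G) :=
  CS (normalizer (P : Set G)).subtype (P : Set G) (nP_conj P)

/-- every element centralizes a `p`-subgroup of order at least `|G|_p / p` -/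
theorem card_le_fixed {G : Type u} [Group G] [Finite G] (p : ℕ) [Fact p.Prime] (x : G)
    (hx : ¬ p ^ 2 ∣ (centralizer ({x} : Set G)).index) :
    p ^ (Nat.card G).factorization p ≤ p * Nat.card (MulAction.fixedBy (Om p G) x) := by
  have hp : p.Prime := Fact.out
  obtain ⟨S⟩ : Nonempty (Sylow p ↥(centralizer ({x} : Set G))) := inferInstance
  have hScard : Nat.card S = p ^ (Nat.card ↥(centralizer ({x} : Set G))).factorization p :=
    S.card_eq_multiplicity
  have hmul : Nat.card ↥(centralizer ({x} : Set G)) * (centralizer ({x} : Set G)).index =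
      Nat.card G := Subgroup.card_mul_index _
  have hidx0 : (centralizer ({x} : Set G)).index ≠ 0 := Subgroup.index_ne_zero_of_finite
  have hidx : ((centralizer ({x} : Set G)).index).factorization p ≤ 1 := by
    by_contra hcon
    rw [not_le] at hcon
    exact hx ((Nat.Prime.pow_dvd_iff_le_factorization hp hidx0).2 hcon)
  have hfac : (Nat.card G).factorization p =
      (Nat.card ↥(centralizer ({x} : Set G))).factorization p +
        ((centralizer ({x} : Set G)).index).factorization p := by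
    rw [← hmul, Nat.factorization_mul Nat.card_pos.ne' hidx0]; rfl
  have hinj : Nat.card S ≤ Nat.card (MulAction.fixedBy (Om p G) x) := by
    refine Nat.card_le_card_of_injective
      (fun s => ⟨⟨((s : ↥(centralizer ({x} : Set G))) : G), ?_⟩, ?_⟩) ?_
    · obtain ⟨k, hk⟩ := S.isPGroup' s
      refine ⟨k, ?_⟩
      have h1 := congrArg (fun t : ↥(S : Subgroup ↥(centralizer ({x} : Set G))) =>
        ((t : ↥(centralizer ({x} : Set G))) : G)) hk
      simpa using h1
    · rw [CS.mem_fixedBy_iff]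
      have hc := (s : ↥(centralizer ({x} : Set G))).2
      rw [Subgroup.mem_centralizer_iff] at hc
      have h1 := hc x rfl
      show x * _ * x⁻¹ = _
      rw [h1]; group
    · intro a b hab
      have h1 : (((a : ↥(centralizer ({x} : Set G))) : G)) = (((b : ↥(centralizer ({x} : Set G))) : G)) :=
        congrArg (fun t : MulAction.fixedBy (Om p G) x => t.1.val) hab
      exact Subtype.ext (Subtype.ext h1)
  calc p ^ (Nat.card G).factorization p
      ≤ p ^ ((Nat.card ↥(centralizer ({x} : Set G))).factorization p + 1) := by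
        rw [hfac]; exact Nat.pow_le_pow_right hp.pos (by omega)
    _ = p * Nat.card S := by rw [hScard, pow_succ]; ring
    _ ≤ p * Nat.card (MulAction.fixedBy (Om p G) x) := Nat.mul_le_mul_left p hinj

/-- claim (4): an element of the normalizer of the abelian group `P` whose power `w ^ m`
centralizes `P`, with `m` prime to `p * (p - 1)`, cannot have `|P : C_P(w)| = p` -/
theorem claim4 {G : Type u} [Group G] [Finite G] (p : ℕ) [Fact p.Prime] (P : Subgroup G)
    (hab : ∀ a ∈ P, ∀ b ∈ P, a * b = b * a) (w : G) (hw : w ∈ normalizer (P : Set G))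
    (m : ℕ) (hm : w ^ m ∈ centralizer (P : Set G)) (hmp : m.Coprime p)
    (hmp1 : m.Coprime (p - 1))
    (hidx : p * Nat.card ↥(P ⊓ centralizer ({w} : Set G)) = Nat.card P) :
    w ∈ centralizer (P : Set G) := by
  have hp : p.Prime := Fact.out
  have hconj : ∀ a ∈ P, w * a * w⁻¹ ∈ P := fun a ha => (Subgroup.mem_normalizer_iff.1 hw a).1 ha
  have hm0 : m ≠ 0 := by
    rintro rfl
    rw [Nat.coprime_zero_left] at hmp
    exact hp.one_lt.ne' hmp
  -- the homomorphism `a ↦ a⁻¹ * w a w⁻¹`
  let δ : ↥P →* G :=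
    { toFun := fun a => (a : G)⁻¹ * (w * a * w⁻¹)
      map_one' := by simp
      map_mul' := by
        intro a b
        have hc : (b : G)⁻¹ * ((a : G)⁻¹ * (w * a * w⁻¹)) = ((a : G)⁻¹ * (w * a * w⁻¹)) * (b : G)⁻¹ :=
          hab _ (inv_mem b.2) _ (mul_mem (inv_mem a.2) (hconj a a.2))
        have e1 : ((a * b : ↥P) : G)⁻¹ * (w * ((a * b : ↥P) : G) * w⁻¹) =
            (b : G)⁻¹ * ((a : G)⁻¹ * (w * a * w⁻¹)) * (w * b * w⁻¹) := by
          rw [Subgroup.coe_mul]; group
        rw [e1, hc]; group }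
  have hδ : ∀ a : ↥P, δ a = (a : G)⁻¹ * (w * a * w⁻¹) := fun a => rfl
  have hδP : ∀ a : ↥P, δ a ∈ P := fun a => mul_mem (inv_mem a.2) (hconj a a.2)
  -- kernel
  have hker : δ.ker = (P ⊓ centralizer ({w} : Set G)).subgroupOf P := by
    ext a
    rw [MonoidHom.mem_ker, Subgroup.mem_subgroupOf, Subgroup.mem_inf, hδ,
      Subgroup.mem_centralizer_singleton_iff]
    constructor
    · intro h
      refine ⟨a.2, ?_⟩
      have h1 : w * a * w⁻¹ = a := by
        have := congrArg (fun t => (a : G) * t) h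
        simpa using this
      calc (a : G) * w = (w * a * w⁻¹) * w := by rw [h1]
        _ = w * a := by group
    · rintro ⟨-, h⟩
      have h1 : w * (a : G) * w⁻¹ = a := by rw [← h]; group
      rw [h1]; group
  have hcardker : Nat.card δ.ker = Nat.card ↥(P ⊓ centralizer ({w} : Set G)) := by
    rw [hker]
    exact Nat.card_congr (Subgroup.subgroupOfEquivOfLe inf_le_left).toEquiv
  have hcardrange : Nat.card δ.range = p := by
    have h1 : Nat.card δ.ker * δ.ker.index = Nat.card ↥P := Subgroup.card_mul_index _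
    rw [Subgroup.index_ker, hcardker, ← hidx, mul_comm] at h1
    exact Nat.eq_of_mul_eq_mul_right Nat.card_pos h1
  -- elements of the range
  have hΛp : ∀ l ∈ δ.range, l ^ p = 1 := by
    intro l hl
    have h1 := pow_card_eq_one' (G := ↥δ.range) (x := ⟨l, hl⟩)
    rw [hcardrange] at h1
    simpa using congrArg Subtype.val h1
  have hΛP : ∀ l ∈ δ.range, l ∈ P := by
    rintro l ⟨a, rfl⟩; exact hδP a
  have hΛw : ∀ l ∈ δ.range, w * l * w⁻¹ ∈ δ.range := by
    rintro l ⟨a, rfl⟩
    refine ⟨⟨w * a * w⁻¹, hconj a a.2⟩, ?_⟩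
    rw [hδ, hδ]; group
  have hwm : ∀ a ∈ P, w ^ m * a * (w ^ m)⁻¹ = a := by
    intro a ha
    have h1 := (Subgroup.mem_centralizer_iff.1 hm) a ha
    rw [← h1]; group
  -- `w` centralizes the range
  have hΛc : ∀ l ∈ δ.range, w * l * w⁻¹ = l := by
    intro l hl
    by_cases hl1 : l = 1
    · rw [hl1]; group
    have hord : orderOf l = p := orderOf_eq_prime (hΛp l hl) hl1
    haveI : Fact p.Prime := ⟨hp⟩
    have hz : (⟨w * l * w⁻¹, hΛw l hl⟩ : ↥δ.range) ∈ Subgroup.zpowers (⟨l, hl⟩ : ↥δ.range) :=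
      mem_zpowers_of_prime_card hcardrange (by
        intro h; exact hl1 (congrArg Subtype.val h))
    obtain ⟨k, hk⟩ := Subgroup.mem_zpowers_iff.1 hz
    have hk' : l ^ k = w * l * w⁻¹ := by
      have := congrArg Subtype.val hk
      simpa using this
    have hpow : ∀ j : ℕ, w ^ j * l * (w ^ j)⁻¹ = l ^ (k ^ j) := by
      intro j
      induction j with
      | zero => simp
      | succ j ih =>
        have e1 : w ^ (j + 1) * l * (w ^ (j + 1))⁻¹ = w * (w ^ j * l * (w ^ j)⁻¹) * w⁻¹ := by
          rw [pow_succ']; group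
        rw [e1, ih, ← conj_zpow, ← hk', ← zpow_mul, pow_succ, mul_comm]
    have h2 : l ^ (k ^ m) = l := by rw [← hpow m]; exact hwm l (hΛP l hl)
    have h3 : l ^ (k ^ m - 1) = 1 := by rw [zpow_sub, h2, zpow_one, mul_inv_cancel]
    have h4 : (p : ℤ) ∣ k ^ m - 1 := by
      rw [← hord]; exact orderOf_dvd_iff_zpow_eq_one.2 h3
    have h5 : ((k : ZMod p)) ^ m = 1 := by
      have h6 := (ZMod.intCast_zmod_eq_zero_iff_dvd (k ^ m - 1) p).2 h4
      push_cast at h6
      exact sub_eq_zero.1 h6
    have hk0 : (k : ZMod p) ≠ 0 := by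
      intro h0
      rw [h0, zero_pow hm0] at h5
      exact zero_ne_one h5
    have h7 : ((k : ZMod p)) ^ (p - 1) = 1 := ZMod.pow_card_sub_one_eq_one hk0
    have h8 : ((k : ZMod p)) ^ (m.gcd (p - 1)) = 1 := pow_gcd_eq_one.2 ⟨h5, h7⟩
    rw [Nat.Coprime.gcd_eq_one hmp1, pow_one] at h8
    have h9 : (p : ℤ) ∣ k - 1 := by
      have : ((k - 1 : ℤ) : ZMod p) = 0 := by push_cast; rw [h8]; ring
      exact (ZMod.intCast_zmod_eq_zero_iff_dvd (k - 1) p).1 this
    have h10 : l ^ (k - 1) = 1 := by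
      rw [← hord] at h9; exact orderOf_dvd_iff_zpow_eq_one.1 h9
    have h11 : l ^ k = l := by
      have : l ^ k = l ^ (k - 1) * l := by rw [← zpow_add_one]; ring_nf
      rw [this, h10, one_mul]
    rw [← hk', h11]
  -- `w ^ j` conjugates `a` to `a * δ(a) ^ j`
  have hpow2 : ∀ a : ↥P, ∀ j : ℕ, w ^ j * a * (w ^ j)⁻¹ = a * (δ a) ^ j := by
    intro a j
    induction j with
    | zero => simp
    | succ j ih =>
      have e1 : w ^ (j + 1) * (a : G) * (w ^ (j + 1))⁻¹ = w * (w ^ j * a * (w ^ j)⁻¹) * w⁻¹ := by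
        rw [pow_succ']; group
      have e2 : w * ((a : G) * (δ a) ^ j) * w⁻¹ = (w * a * w⁻¹) * (w * δ a * w⁻¹) ^ j := by
        rw [conj_pow]; group
      have e3 : w * (a : G) * w⁻¹ = a * δ a := by rw [hδ]; group
      rw [e1, ih, e2, hΛc (δ a) ⟨a, rfl⟩, e3, pow_succ', mul_assoc]
  have hδ1 : ∀ a : ↥P, δ a = 1 := by
    intro a
    have h1 : (δ a) ^ m = 1 := by
      have h2 := hpow2 a m
      rw [hwm a a.2] at h2
      have h3 := congrArg (fun t => (a : G)⁻¹ * t) h2
      simpa using h3.symm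
    have h2 : (δ a) ^ p = 1 := hΛp _ ⟨a, rfl⟩
    have h3 : (δ a) ^ (m.gcd p) = 1 := pow_gcd_eq_one.2 ⟨h1, h2⟩
    rwa [Nat.Coprime.gcd_eq_one hmp, pow_one] at h3
  rw [Subgroup.mem_centralizer_iff]
  intro a ha
  have h1 := hδ1 ⟨a, ha⟩
  rw [hδ] at h1
  have h2 : w * a * w⁻¹ = a := by
    have := congrArg (fun t => (a : G) * t) h1
    simpa using this
  calc a * w = (w * a * w⁻¹) * w := by rw [h2]
    _ = w * a := by group

/-- claim (4) in the form used in the count -/
theorem claim4' {G : Type u} [Group G] [Finite G] (p : ℕ) [Fact p.Prime] (P : Subgroup G)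
    (hPcard : Nat.card P = p ^ (Nat.card G).factorization p)
    (hab : ∀ a ∈ P, ∀ b ∈ P, a * b = b * a) (w : G) (hw : w ∈ normalizer (P : Set G))
    (hwC : w ∉ centralizer (P : Set G))
    (m : ℕ) (hm : w ^ m ∈ centralizer (P : Set G)) (hmp : m.Coprime p)
    (hmp1 : m.Coprime (p - 1)) :
    p ^ 2 * Nat.card ↥(P ⊓ centralizer ({w} : Set G)) ≤ Nat.card P := by
  have hp : p.Prime := Fact.out
  have hdvd : Nat.card ↥(P ⊓ centralizer ({w} : Set G)) ∣ p ^ (Nat.card G).factorization p := by
    rw [← hPcard]; exact Subgroup.card_dvd_of_le inf_le_left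
  obtain ⟨b, hb, hcard⟩ := (Nat.dvd_prime_pow hp).1 hdvd
  rw [hcard, hPcard]
  rcases Nat.lt_or_ge (b + 1) ((Nat.card G).factorization p) with h1 | h1
  · calc p ^ 2 * p ^ b = p ^ (b + 2) := by ring
      _ ≤ p ^ (Nat.card G).factorization p := Nat.pow_le_pow_right hp.pos h1
  · exfalso
    rcases Nat.lt_or_ge b ((Nat.card G).factorization p) with h2 | h2
    · have hb1 : b + 1 = (Nat.card G).factorization p := by omega
      apply hwC
      refine claim4 p P hab w hw m hm hmp hmp1 ?_
      rw [hcard, hPcard, ← hb1, pow_succ]; ring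
    · have hbe : b = (Nat.card G).factorization p := le_antisymm hb h2
      have heq : P ⊓ centralizer ({w} : Set G) = P := by
        apply Subgroup.eq_of_le_of_card_ge inf_le_left
        rw [hcard, hPcard, hbe]
      apply hwC
      rw [Subgroup.mem_centralizer_iff]
      intro a ha
      have ha' : a ∈ P ⊓ centralizer ({w} : Set G) := by rw [heq]; exact ha
      exact (Subgroup.mem_centralizer_singleton_iff.1 ha'.2)

/-- the statement for a subgroup `P` of Sylow order into which every `p`-element is conjugate -/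
theorem pn_core_aux {G : Type u} [Group G] [Finite G] (p : ℕ) [Fact p.Prime]
    (hmin : ∀ r : ℕ, r.Prime → r ∣ Nat.card G → p ≤ r)
    (P : Subgroup G) (hPcard : Nat.card P = p ^ (Nat.card G).factorization p)
    (hconj : ∀ y : G, (∃ k : ℕ, y ^ p ^ k = 1) → ∃ g : G, g * y * g⁻¹ ∈ P)
    (hab : ∀ a ∈ P, ∀ b ∈ P, a * b = b * a)
    (h : ∀ x : G, ¬ p ^ 2 ∣ (centralizer ({x} : Set G)).index) :
    normalizer (P : Set G) ≤ centralizer (P : Set G) := by
  classical
  have hp : p.Prime := Fact.out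
  haveI := Fintype.ofFinite G
  haveI : Fintype ↥(normalizer (P : Set G)) := Fintype.ofFinite _
  obtain ⟨n, hn⟩ : ∃ n : ℕ, n = Nat.card P := ⟨_, rfl⟩
  have hn1 : 1 ≤ n := by rw [hn]; exact Nat.card_pos
  have hPel : ∀ a ∈ P, a ∈ pEl p G := by
    intro a ha
    refine ⟨(Nat.card G).factorization p, ?_⟩
    have h1 := pow_card_eq_one' (G := ↥P) (x := ⟨a, ha⟩)
    rw [hPcard] at h1
    simpa using congrArg Subtype.val h1
  -- Step 2: the number of classes of `p`-elements
  obtain ⟨k', hk'⟩ : ∃ k' : ℕ, k' = Nat.card (MulAction.orbitRel.Quotient G (Om p G)) := ⟨_, rfl⟩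
  have hB1 := burnside (Γ := G) (β := Om p G)
  rw [← hk'] at hB1
  have hlow : ∀ x : G, n ≤ p * Nat.card (MulAction.fixedBy (Om p G) x) := fun x => by
    rw [hn, hPcard]; exact card_le_fixed p x (h x)
  have hlow1 : n ≤ Nat.card (MulAction.fixedBy (Om p G) (1 : G)) := by
    rw [hn]
    refine Nat.card_le_card_of_injective
      (fun a : ↥P => ⟨⟨(a : G), hPel a a.2⟩, ?_⟩) ?_
    · rw [CS.mem_fixedBy_iff]; simp
    · intro a b hab'
      have h1 : (a : G) = (b : G) :=
        congrArg (fun t : MulAction.fixedBy (Om p G) (1 : G) => t.1.val) hab'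
      exact Subtype.ext h1
  have hk1 : n + 1 ≤ p * k' := by
    have hsum : Nat.card G * n + n ≤
        ∑ x : G, p * Nat.card (MulAction.fixedBy (Om p G) x) := by
      rw [← Finset.add_sum_erase Finset.univ _ (Finset.mem_univ (1 : G))]
      have h1 : p * n ≤ p * Nat.card (MulAction.fixedBy (Om p G) (1 : G)) :=
        Nat.mul_le_mul_left p hlow1
      have h2 : (Finset.univ.erase (1 : G)).card • n ≤
          ∑ x ∈ Finset.univ.erase (1 : G), p * Nat.card (MulAction.fixedBy (Om p G) x) :=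
        Finset.card_nsmul_le_sum _ _ _ (fun x _ => hlow x)
      rw [Finset.card_erase_of_mem (Finset.mem_univ _), Finset.card_univ, smul_eq_mul] at h2
      have h3 : Nat.card G = Fintype.card G := Nat.card_eq_fintype_card
      have h4 : 1 ≤ Fintype.card G := Fintype.card_pos
      have h6 : 2 * n ≤ p * n := Nat.mul_le_mul_right n hp.two_le
      have h7 : (Fintype.card G - 1) * n + n = Fintype.card G * n := by
        have h8 : Fintype.card G - 1 + 1 = Fintype.card G := Nat.sub_add_cancel h4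
        calc (Fintype.card G - 1) * n + n = (Fintype.card G - 1 + 1) * n := by ring
          _ = _ := by rw [h8]
      rw [h3]; omega
    rw [← Finset.mul_sum, hB1] at hsum
    by_contra hcon
    rw [not_le] at hcon
    have h1 : p * (k' * Nat.card G) ≤ n * Nat.card G := by
      calc p * (k' * Nat.card G) = (p * k') * Nat.card G := by ring
        _ ≤ n * Nat.card G := Nat.mul_le_mul_right _ (by omega)
    have h2 : Nat.card G * n = n * Nat.card G := mul_comm _ _
    omega
  -- Step 3: comparison with the orbits of the normalizer on `P`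
  obtain ⟨kN, hkN⟩ : ∃ kN : ℕ, kN = Nat.card
      (MulAction.orbitRel.Quotient ↥(normalizer (P : Set G)) (Pi P)) := ⟨_, rfl⟩
  have hk'N : k' ≤ kN := by
    rw [hk', hkN]
    refine Nat.card_le_card_of_surjective
      (Quotient.map' (fun a : Pi P => (⟨a.val, hPel a.val a.mem⟩ : Om p G)) ?_) ?_
    · intro a b hab'
      have hab2 : a ∈ MulAction.orbit ↥(normalizer (P : Set G)) b := hab'
      obtain ⟨w, hw⟩ := MulAction.mem_orbit_iff.1 hab2
      show _ ∈ MulAction.orbit G _
      have h1 : (w • b).val = a.val := congrArg CS.val hw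
      exact MulAction.mem_orbit_iff.2 ⟨(w : G), CS.ext' h1⟩
    · intro q
      induction q using Quotient.inductionOn' with
      | h y =>
        obtain ⟨g, hg⟩ := hconj y.val y.mem
        refine ⟨Quotient.mk'' (⟨g * y.val * g⁻¹, hg⟩ : Pi P), ?_⟩
        rw [Quotient.map'_mk'']
        apply Quotient.sound'
        show _ ∈ MulAction.orbit G _
        exact MulAction.mem_orbit_iff.2 ⟨g, CS.ext' rfl⟩
  -- Step 5: the count in the normalizer
  have hB2 := burnside (Γ := ↥(normalizer (P : Set G))) (β := Pi P)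
  rw [← hkN] at hB2
  obtain ⟨Cs, hCs⟩ : ∃ Cs : Subgroup ↥(normalizer (P : Set G)),
      Cs = (centralizer (P : Set G)).subgroupOf (normalizer (P : Set G)) := ⟨_, rfl⟩
  have hmemCs : ∀ w : ↥(normalizer (P : Set G)), w ∈ Cs ↔ (w : G) ∈ centralizer (P : Set G) := by
    intro w; rw [hCs, Subgroup.mem_subgroupOf]
  haveI hCsn : Cs.Normal := by
    refine ⟨fun c hc w => ?_⟩
    rw [hmemCs] at hc ⊢
    rw [Subgroup.mem_centralizer_iff] at hc ⊢
    intro a ha
    have ha' : (w : G)⁻¹ * a * (w : G) ∈ P := by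
      have := (Subgroup.mem_normalizer_iff.1 (inv_mem w.2) a).1 ha
      simpa using this
    have hc' := hc _ ha'
    show a * ((w : G) * (c : G) * (w : G)⁻¹) = (w : G) * (c : G) * (w : G)⁻¹ * a
    calc a * ((w : G) * (c : G) * (w : G)⁻¹)
        = (w : G) * (((w : G)⁻¹ * a * (w : G)) * (c : G)) * (w : G)⁻¹ := by group
      _ = (w : G) * ((c : G) * ((w : G)⁻¹ * a * (w : G))) * (w : G)⁻¹ := by rw [hc']
      _ = _ := by group
  obtain ⟨m, hm⟩ : ∃ m : ℕ, m = Cs.index := ⟨_, rfl⟩
  have hcardN : Nat.card Cs * m = Nat.card ↥(normalizer (P : Set G)) := by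
    rw [hm]; exact Subgroup.card_mul_index Cs
  have hm0 : 0 < m := by
    rcases Nat.eq_zero_or_pos m with h0 | h0
    · rw [h0, mul_zero] at hcardN
      exact absurd hcardN.symm Nat.card_pos.ne'
    · exact h0
  have hpow : ∀ w : ↥(normalizer (P : Set G)), ((w : G)) ^ m ∈ centralizer (P : Set G) := by
    intro w
    have h1 := Subgroup.pow_index_mem Cs w
    rw [hmemCs, ← hm] at h1
    simpa using h1
  have hPC : P ≤ centralizer (P : Set G) := by
    intro a ha
    rw [Subgroup.mem_centralizer_iff]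
    intro b hb
    exact hab b hb a ha
  have hndvd : n ∣ Nat.card Cs := by
    have h1 : P.subgroupOf (normalizer (P : Set G)) ≤ Cs := by
      intro w hw
      rw [hmemCs]
      exact hPC (Subgroup.mem_subgroupOf.1 hw)
    have h2 : Nat.card ↥(P.subgroupOf (normalizer (P : Set G))) = n := by
      rw [hn]
      exact Nat.card_congr (Subgroup.subgroupOfEquivOfLe Subgroup.le_normalizer).toEquiv
    rw [← h2]
    exact Subgroup.card_dvd_of_le h1
  have hm_pr : ∀ r : ℕ, r.Prime → r ∣ m → p < r := by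
    intro r hr hrm
    have h1 : m ∣ Nat.card G :=
      (Dvd.intro_left _ hcardN).trans (Subgroup.card_subgroup_dvd_card _)
    have h2 : p ≤ r := hmin r hr (hrm.trans h1)
    rcases Nat.lt_or_ge p r with h3 | h3
    · exact h3
    · exfalso
      have hrp : r = p := le_antisymm h3 h2
      rw [hrp] at hrm
      have h4 : n * p ∣ Nat.card G := by
        have : n * p ∣ Nat.card Cs * m := Nat.mul_dvd_mul hndvd hrm
        rw [hcardN] at this
        exact this.trans (Subgroup.card_subgroup_dvd_card _)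
      rw [hn, hPcard, ← pow_succ] at h4
      exact Nat.pow_succ_factorization_not_dvd Nat.card_pos.ne' hp h4
  have hmp : m.Coprime p :=
    Nat.Coprime.symm ((Nat.Prime.coprime_iff_not_dvd hp).2
      (fun hpm => absurd (hm_pr p hp hpm) (lt_irrefl p)))
  have hmp1 : m.Coprime (p - 1) := by
    by_contra hcon
    obtain ⟨r, hr, hrm, hrp⟩ := Nat.Prime.not_coprime_iff_dvd.1 hcon
    have h1 := hm_pr r hr hrm
    have h2 : r ≤ p - 1 := Nat.le_of_dvd (by have := hp.two_le; omega) hrp
    omega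
  have hup0 : ∀ w : ↥(normalizer (P : Set G)),
      Nat.card (MulAction.fixedBy (Pi P) w) ≤ Nat.card ↥(P ⊓ centralizer ({(w : G)} : Set G)) := by
    intro w
    refine Nat.card_le_card_of_injective
      (fun a => ⟨a.1.val, Subgroup.mem_inf.2 ⟨a.1.mem, ?_⟩⟩) ?_
    · have h1 := (CS.mem_fixedBy_iff w a.1).1 a.2
      rw [Subgroup.mem_centralizer_singleton_iff]
      have h2 : (w : G) * a.1.val * (w : G)⁻¹ = a.1.val := h1
      calc a.1.val * (w : G) = ((w : G) * a.1.val * (w : G)⁻¹) * (w : G) := by rw [h2]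
        _ = (w : G) * a.1.val := by group
    · intro a b hab'
      have h1 : a.1.val = b.1.val := congrArg Subtype.val hab'
      exact Subtype.ext (CS.ext' h1)
  have hup1 : ∀ w : ↥(normalizer (P : Set G)), Nat.card (MulAction.fixedBy (Pi P) w) ≤ n := by
    intro w
    rw [hn]
    exact (hup0 w).trans (Subgroup.card_le_of_le inf_le_left)
  have hup : ∀ w : ↥(normalizer (P : Set G)), w ∉ Cs →
      p ^ 2 * Nat.card (MulAction.fixedBy (Pi P) w) ≤ n := by
    intro w hw
    rw [hmemCs] at hw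
    rw [hn]
    exact (Nat.mul_le_mul_left _ (hup0 w)).trans
      (claim4' p P hPcard hab (w : G) w.2 hw m (hpow w) hmp hmp1)
  obtain ⟨c, hc⟩ : ∃ c : ℕ, c = Nat.card Cs := ⟨_, rfl⟩
  have hc0 : 0 < c := by rw [hc]; exact Nat.card_pos
  rw [← hc] at hcardN
  have hsumN : p ^ 2 * (kN * (c * m)) ≤ c * (p ^ 2 * n) + (c * m - c) * n := by
    rw [← hcardN] at hB2
    rw [← hB2, Finset.mul_sum,
      ← Finset.sum_filter_add_sum_filter_not Finset.univ (fun w => w ∈ Cs)]
    have hA : ∑ w ∈ Finset.univ.filter (fun w => w ∈ Cs),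
        p ^ 2 * Nat.card (MulAction.fixedBy (Pi P) w) ≤
          (Finset.univ.filter (fun w => w ∈ Cs)).card • (p ^ 2 * n) :=
      Finset.sum_le_card_nsmul _ _ _ (fun w _ => Nat.mul_le_mul_left _ (hup1 w))
    have hBd : ∑ w ∈ Finset.univ.filter (fun w => ¬ w ∈ Cs),
        p ^ 2 * Nat.card (MulAction.fixedBy (Pi P) w) ≤
          (Finset.univ.filter (fun w => ¬ w ∈ Cs)).card • n :=
      Finset.sum_le_card_nsmul _ _ _ (fun w hw => hup w (Finset.mem_filter.1 hw).2)
    have hc1 : (Finset.univ.filter (fun w => w ∈ Cs)).card = c := by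
      rw [hc, Nat.card_eq_fintype_card, Fintype.card_subtype]
    have hc2 : (Finset.univ.filter (fun w => ¬ w ∈ Cs)).card = c * m - c := by
      have h1 := Finset.card_filter_add_card_filter_not
        (s := (Finset.univ : Finset ↥(normalizer (P : Set G)))) (p := fun w => w ∈ Cs)
      rw [hc1, Finset.card_univ, ← Nat.card_eq_fintype_card, ← hcardN] at h1
      omega
    rw [hc1, smul_eq_mul] at hA
    rw [hc2, smul_eq_mul] at hBd
    exact Nat.add_le_add hA hBd
  -- arithmetic
  have hcm : c ≤ c * m := Nat.le_mul_of_pos_right c hm0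
  have hkey : p ^ 2 * kN * m + n ≤ p ^ 2 * n + n * m := by
    apply Nat.le_of_mul_le_mul_left _ hc0
    have e1 : c * (p ^ 2 * kN * m + n) = p ^ 2 * (kN * (c * m)) + c * n := by ring
    have e2 : c * (p ^ 2 * n + n * m) = c * (p ^ 2 * n) + (c * m) * n := by ring
    have e3 : (c * m - c) * n + c * n = (c * m) * n := by
      rw [← Nat.add_mul, Nat.sub_add_cancel hcm]
    rw [e1, e2]
    omega
  have hkey2 : p * (n + 1) * m + n ≤ p ^ 2 * n + n * m := by
    have h1 : p * (n + 1) ≤ p * (p * kN) :=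
      Nat.mul_le_mul_left p (hk1.trans (Nat.mul_le_mul_left p hk'N))
    have h2 : p * (n + 1) * m ≤ p ^ 2 * kN * m := by
      calc p * (n + 1) * m ≤ p * (p * kN) * m := Nat.mul_le_mul_right m h1
        _ = p ^ 2 * kN * m := by ring
    omega
  have hmle : m ≤ p := by
    by_contra hcon
    rw [not_le] at hcon
    obtain ⟨t, rfl⟩ : ∃ t, m = p + 1 + t := ⟨m - (p + 1), by omega⟩
    have h1 : n * t ≤ p * (n * t) := Nat.le_mul_of_pos_left _ hp.pos
    have h2 : 0 < p ^ 2 + p := Nat.add_pos_right _ hp.pos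
    have e1 : p * (n + 1) * (p + 1 + t) + n =
        p ^ 2 * n + p * n + p ^ 2 + p + p * (n * t) + p * t + n := by ring
    have e2 : p ^ 2 * n + n * (p + 1 + t) = p ^ 2 * n + p * n + n + n * t := by ring
    rw [e1, e2] at hkey2
    omega
  have hm1 : m = 1 := by
    by_contra hcon
    obtain ⟨r, hr, hrm⟩ := Nat.exists_prime_and_dvd hcon
    have h1 := hm_pr r hr hrm
    have h2 : r ≤ m := Nat.le_of_dvd hm0 hrm
    omega
  rw [hm] at hm1
  have htop : Cs = ⊤ := Subgroup.index_eq_one.1 hm1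
  intro w hw
  have h1 : (⟨w, hw⟩ : ↥(normalizer (P : Set G))) ∈ Cs := by rw [htop]; exact Subgroup.mem_top _
  exact (hmemCs _).1 h1

/-- **PN-core** (helper32's package for S4130). -/
theorem pn_core {G : Type*} [Group G] [Finite G] (p : ℕ) [Fact p.Prime]
    (hmin : ∀ r : ℕ, r.Prime → r ∣ Nat.card G → p ≤ r)
    (P : Sylow p G) (hab : ∀ a ∈ P, ∀ b ∈ P, a * b = b * a)
    (h : ∀ x : G, ¬ p ^ 2 ∣ (Subgroup.centralizer ({x} : Set G)).index) :
    Subgroup.normalizer (P : Set G) ≤ Subgroup.centralizer (P : Set G) := by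
  have hp : p.Prime := Fact.out
  refine pn_core_aux p hmin (P : Subgroup G) P.card_eq_multiplicity ?_ hab h
  rintro y ⟨k, hk⟩
  have hy : IsPGroup p ↥(Subgroup.zpowers y) := by
    apply IsPGroup.of_card (n := (Nat.card ↥(Subgroup.zpowers y)).factorization p)
    have h1 : Nat.card ↥(Subgroup.zpowers y) ∣ p ^ k := by
      rw [Nat.card_zpowers]; exact orderOf_dvd_of_pow_eq_one hk
    obtain ⟨j, -, hj⟩ := (Nat.dvd_prime_pow hp).1 h1
    rw [hj, Nat.Prime.factorization_pow hp]; simp
  obtain ⟨Q, hQ⟩ := hy.exists_le_sylow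
  obtain ⟨g, hg⟩ := MulAction.exists_smul_eq G Q P
  refine ⟨g, ?_⟩
  have h1 : y ∈ (Q : Subgroup G) := hQ (Subgroup.mem_zpowers y)
  have h2 : g * y * g⁻¹ ∈ ((g • Q : Sylow p G) : Subgroup G) := by
    rw [Sylow.smul_def, Sylow.pointwise_smul_def]
    have := (Subgroup.smul_mem_pointwise_smul_iff (a := MulAut.conj g) (S := (Q : Subgroup G))
      (x := y)).2 h1
    simpa [MulAut.smul_def] using this
  rw [hg] at h2
  exact h2

end Cfsg.Agent.Lib.Helper25.PN
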